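import Mathlib

/-!
Piece A1 for S1011 (helper21): in a simple group of order 504 the normalizer of a Sylow
7-subgroup has order 14.
-/

namespace Cfsg.Agent.Helper15.O504A1

theorem fact_aux (p k m : ℕ) (hp : p.Prime) (hm : ¬ p ∣ m) (hm0 : m ≠ 0) :
    (p ^ k * m).factorization p = k := by
  rw [Nat.factorization_mul (pow_ne_zero _ hp.ne_zero) hm0, Nat.Prime.factorization_pow hp]
  simp [Nat.factorization_eq_zero_of_not_dvd hm]

instance fact7 : Fact (Nat.Prime 7) := ⟨by norm_num⟩
instance fact3 : Fact (Nat.Prime 3) := ⟨by norm_num⟩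

variable {G : Type*} [Group G] [Finite G] [IsSimpleGroup G]

theorem norm_ne_top {p : ℕ} [Fact p.Prime] (P : Sylow p G)
    (h1 : Nat.card (P : Subgroup G) ≠ 1) (h2 : Nat.card (P : Subgroup G) ≠ Nat.card G) :
    Subgroup.normalizer (P : Set G) ≠ ⊤ := by
  intro hN'
  have hnorm : (P : Subgroup G).Normal := Subgroup.normalizer_eq_top_iff.mp hN'
  rcases IsSimpleGroup.eq_bot_or_eq_top_of_normal (P : Subgroup G) hnorm with h' | h'
  · rw [h', Subgroup.card_bot] at h1
    exact h1 rfl
  · rw [h', Subgroup.card_top] at h2
    exact h2 rfl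

theorem card_syl7 (h : Nat.card G = 504) (P : Sylow 7 G) :
    Nat.card (P : Subgroup G) = 7 := by
  have h1 := Sylow.card_eq_multiplicity P
  rw [h] at h1
  have e : (504 : ℕ) = 7 ^ 1 * 72 := by norm_num
  rw [e, fact_aux 7 1 72 (by norm_num) (by norm_num) (by norm_num)] at h1
  simpa using h1

theorem norm7_card (h : Nat.card G = 504) (P : Sylow 7 G) :
    Nat.card ↥(Subgroup.normalizer ((P : Subgroup G) : Set G)) = 14 := by
  classical
  show Nat.card ↥(Subgroup.normalizer (P : Set G)) = 14
  have hP7 := card_syl7 h P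
  have hPidx : (P : Subgroup G).index = 72 := by
    have := Subgroup.card_mul_index (P : Subgroup G)
    rw [hP7, h] at this
    omega
  have h1 := card_sylow_modEq_one 7 G
  have h2 := P.card_dvd_index
  rw [hPidx] at h2
  have h3 := P.card_eq_index_normalizer
  have hNne : Subgroup.normalizer (P : Set G) ≠ ⊤ :=
    norm_ne_top P (by rw [hP7]; norm_num) (by rw [hP7, h]; norm_num)
  have hNcard := Subgroup.card_mul_index (Subgroup.normalizer (P : Set G))
  rw [← h3, h] at hNcard
  have hle : Nat.card (Sylow 7 G) ≤ 72 := Nat.le_of_dvd (by norm_num) h2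
  have hne1 : Nat.card (Sylow 7 G) ≠ 1 := by
    intro h1'
    rw [h1', mul_one] at hNcard
    exact hNne ((Subgroup.card_eq_iff_eq_top _).mp (by rw [hNcard, h]))
  have hcases : Nat.card (Sylow 7 G) = 8 ∨ Nat.card (Sylow 7 G) = 36 := by
    unfold Nat.ModEq at h1
    generalize Nat.card (Sylow 7 G) = m at h1 h2 hle hne1 ⊢
    interval_cases m <;> omega
  rcases hcases with h8 | h36
  swap
  · rw [h36] at hNcard
    omega
  exfalso
  rw [h8] at hNcard
  have hN63 : Nat.card (Subgroup.normalizer (P : Set G)) = 63 := by omega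
  -- an element of order 3 centralizing P
  obtain ⟨y, hy3, hyC, hyN⟩ : ∃ y : G, orderOf y = 3 ∧
      y ∈ Subgroup.centralizer (P : Set G) ∧ y ∈ Subgroup.normalizer (P : Set G) := by
    have hcyc : IsCyclic ↥(P : Subgroup G) := isCyclic_of_prime_card hP7
    have hN63' : Nat.card ↥(Subgroup.normalizer ((P : Subgroup G) : Set G)) = 63 := hN63
    have key := Subgroup.card_dvd_of_injective _
      (QuotientGroup.kerLift_injective (P : Subgroup G).normalizerMonoidHom)
    rw [Subgroup.normalizerMonoidHom_ker, ← Subgroup.index, IsCyclic.card_mulAut, hP7,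
      Nat.totient_prime (by norm_num)] at key
    have hKc := Subgroup.card_mul_index
      ((Subgroup.centralizer ((P : Subgroup G) : Set G)).subgroupOf
        (Subgroup.normalizer ((P : Subgroup G) : Set G)))
    rw [hN63'] at hKc
    have h3K : 3 ∣ Nat.card ↥((Subgroup.centralizer ((P : Subgroup G) : Set G)).subgroupOf
        (Subgroup.normalizer ((P : Subgroup G) : Set G))) := by
      have hr6 : ((Subgroup.centralizer ((P : Subgroup G) : Set G)).subgroupOf
          (Subgroup.normalizer ((P : Subgroup G) : Set G))).index ≤ 6 :=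
        Nat.le_of_dvd (by norm_num) key
      generalize ((Subgroup.centralizer ((P : Subgroup G) : Set G)).subgroupOf
          (Subgroup.normalizer ((P : Subgroup G) : Set G))).index = r at key hKc hr6
      generalize Nat.card ↥((Subgroup.centralizer ((P : Subgroup G) : Set G)).subgroupOf
          (Subgroup.normalizer ((P : Subgroup G) : Set G))) = c at hKc ⊢
      interval_cases r <;> omega
    obtain ⟨k, hk⟩ := exists_prime_orderOf_dvd_card' 3 h3K
    refine ⟨((k : ↥(Subgroup.normalizer ((P : Subgroup G) : Set G))) : G), ?_, ?_, ?_⟩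
    · rw [Subgroup.orderOf_coe, Subgroup.orderOf_coe, hk]
    · exact Subgroup.mem_subgroupOf.mp k.2
    · exact (k : ↥(Subgroup.normalizer ((P : Subgroup G) : Set G))).2
  -- a second Sylow 7-subgroup fixed by y
  have hZ : IsPGroup 3 ↥(Subgroup.zpowers y) :=
    IsPGroup.of_card (n := 1) (by rw [Nat.card_zpowers, hy3, pow_one])
  have hfix := hZ.card_modEq_card_fixedPoints (Sylow 7 G)
  rw [h8] at hfix
  have hyP : y • P = P := Sylow.smul_eq_iff_mem_normalizer.mpr hyN
  obtain ⟨P', hP'fix, hP'ne⟩ : ∃ P' : Sylow 7 G, y • P' = P' ∧ P' ≠ P := by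
    by_contra hcon
    push Not at hcon
    have hsub : Subsingleton ↥(MulAction.fixedPoints ↥(Subgroup.zpowers y) (Sylow 7 G)) := by
      constructor
      intro a b
      have ha : y • (a : Sylow 7 G) = a := a.2 ⟨y, Subgroup.mem_zpowers y⟩
      have hb : y • (b : Sylow 7 G) = b := b.2 ⟨y, Subgroup.mem_zpowers y⟩
      exact Subtype.ext ((hcon _ ha).trans (hcon _ hb).symm)
    have hle1 := Finite.card_le_one_iff_subsingleton.mpr hsub
    unfold Nat.ModEq at hfix
    omega
  -- P acts freely on P'
  have hfree : ∀ u ∈ (P : Subgroup G), u • P' = P' → u = 1 := by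
    intro u hu hfix'
    by_contra hu1
    apply hP'ne
    have hun : u ∈ Subgroup.normalizer (P' : Set G) :=
      Sylow.smul_eq_iff_mem_normalizer.mp hfix'
    have huQ : u ∈ (P' : Subgroup G) := by
      have h5 := IsPGroup.inf_normalizer_sylow P.isPGroup' P'
      have h6 : u ∈ (P : Subgroup G) ⊓ Subgroup.normalizer (P' : Set G) :=
        Subgroup.mem_inf.mpr ⟨hu, hun⟩
      rw [h5] at h6
      exact (Subgroup.mem_inf.mp h6).2
    have htop : Subgroup.zpowers (⟨u, hu⟩ : ↥(P : Subgroup G)) = ⊤ :=
      zpowers_eq_top_of_prime_card hP7 (fun hc => hu1 (congrArg Subtype.val hc))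
    have hPle : (P : Subgroup G) ≤ (P' : Subgroup G) := by
      intro v hv
      have hv' : (⟨v, hv⟩ : ↥(P : Subgroup G)) ∈
          Subgroup.zpowers (⟨u, hu⟩ : ↥(P : Subgroup G)) := by
        rw [htop]
        exact Subgroup.mem_top _
      obtain ⟨k, hk⟩ := Subgroup.mem_zpowers_iff.mp hv'
      have hk' : u ^ k = v := by
        have h7 := congrArg Subtype.val hk
        simpa using h7
      rw [← hk']
      exact zpow_mem huQ k
    have heq : (P' : Subgroup G) = (P : Subgroup G) := P.is_maximal' P'.isPGroup' hPle
    exact Sylow.ext heq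
  -- y fixes every Sylow 7-subgroup
  have hyfix_all : ∀ Q : Sylow 7 G, y • Q = Q := by
    let ψ : Option ↥(P : Subgroup G) → Sylow 7 G := fun o => o.elim P (fun x => (x : G) • P')
    have hψinj : Function.Injective ψ := by
      intro a b hab
      cases a with
      | none =>
        cases b with
        | none => rfl
        | some x =>
          exfalso
          have h5 : P = (x : G) • P' := hab
          apply hP'ne
          have h6 : (x : G)⁻¹ • P = P :=
            Sylow.smul_eq_iff_mem_normalizer.mpr (Subgroup.le_normalizer (inv_mem x.2))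
          have h7 : (x : G)⁻¹ • ((x : G) • P') = P' := inv_smul_smul _ _
          rw [← h5] at h7
          exact h7.symm.trans h6
      | some x =>
        cases b with
        | none =>
          exfalso
          have h5 : (x : G) • P' = P := hab
          apply hP'ne
          have h6 : (x : G)⁻¹ • P = P :=
            Sylow.smul_eq_iff_mem_normalizer.mpr (Subgroup.le_normalizer (inv_mem x.2))
          have h7 : (x : G)⁻¹ • ((x : G) • P') = P' := inv_smul_smul _ _
          rw [h5] at h7
          exact h7.symm.trans h6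
        | some x' =>
          have h5 : (x : G) • P' = (x' : G) • P' := hab
          have h6 : ((x' : G)⁻¹ * (x : G)) • P' = P' := by
            rw [mul_smul, h5, inv_smul_smul]
          have h7 := hfree _ (mul_mem (inv_mem x'.2) x.2) h6
          have h8' : (x : G) = (x' : G) := (inv_mul_eq_one.mp h7).symm
          exact congrArg some (Subtype.ext h8')
    have hbij : Function.Bijective ψ :=
      hψinj.bijective_of_nat_card_le (le_of_eq (by rw [Finite.card_option, hP7, h8]))
    intro Q
    obtain ⟨o, rfl⟩ := hbij.2 Q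
    cases o with
    | none => exact hyP
    | some x =>
      show y • ((x : G) • P') = (x : G) • P'
      have hcomm : y * (x : G) = (x : G) * y :=
        ((Subgroup.mem_centralizer_iff.mp hyC) (x : G) x.2).symm
      rw [← mul_smul, hcomm, mul_smul, hP'fix]
  have hcore : (Subgroup.normalizer (P : Set G)).normalCore = ⊥ := by
    rcases IsSimpleGroup.eq_bot_or_eq_top_of_normal
      (Subgroup.normalizer (P : Set G)).normalCore inferInstance with h' | h'
    · exact h'
    · exfalso
      apply hNne
      rw [eq_top_iff, ← h']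
      exact Subgroup.normalCore_le _
  have hmem : y ∈ (Subgroup.normalizer (P : Set G)).normalCore := by
    show ∀ b : G, b * y * b⁻¹ ∈ Subgroup.normalizer (P : Set G)
    intro b
    rw [← Sylow.smul_eq_iff_mem_normalizer, mul_smul, mul_smul, hyfix_all, smul_inv_smul]
  rw [hcore] at hmem
  have hy1 : y = 1 := Subgroup.mem_bot.mp hmem
  rw [hy1, orderOf_one] at hy3
  omega

end Cfsg.Agent.Helper15.O504A1
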