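import Mathlib
import Cfsg.Agent.Helper15.O504A1

/-!
Piece A2 for S1011 (helper21): in a simple group of order 504 whose Sylow 7-normalizers
have order 14, some involution inverts an element of order 7.
-/

namespace Cfsg.Agent.Helper15.O504A2

open Cfsg.Agent.Helper15.O504A1

instance fact2 : Fact (Nat.Prime 2) := ⟨by norm_num⟩

variable {G : Type*} [Group G] [Finite G] [IsSimpleGroup G]

theorem no_burnside {p : ℕ} [Fact p.Prime]
    (P : Sylow p G) (h1 : Nat.card (P : Subgroup G) ≠ 1)
    (h2 : Nat.card (P : Subgroup G) ≠ Nat.card G)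
    (hP : Subgroup.normalizer (P : Set G) ≤ Subgroup.centralizer (P : Set G)) : False := by
  have hK := MonoidHom.ker_transferSylow_isComplement' P hP
  have hKcard := hK.card_mul_card
  rcases IsSimpleGroup.eq_bot_or_eq_top_of_normal _
    (MonoidHom.normal_ker (MonoidHom.transferSylow P hP)) with h' | h'
  · rw [h', Subgroup.card_bot, one_mul] at hKcard
    exact h2 hKcard
  · rw [h', Subgroup.card_top] at hKcard
    have hpos : 0 < Nat.card G := Nat.card_pos
    exact h1 (Nat.eq_of_mul_eq_mul_left hpos (hKcard.trans (mul_one _).symm))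

theorem exists_D14 (h : Nat.card G = 504)
    (hN : ∀ P : Sylow 7 G, Nat.card ↥(Subgroup.normalizer ((P : Subgroup G) : Set G)) = 14) :
    ∃ x t : G, orderOf x = 7 ∧ orderOf t = 2 ∧ t * x * t⁻¹ = x⁻¹ := by
  classical
  obtain ⟨P⟩ : Nonempty (Sylow 7 G) := inferInstance
  have hP7 := card_syl7 h P
  have hN14 : Nat.card ↥(Subgroup.normalizer (P : Set G)) = 14 := hN P
  obtain ⟨x0, hx0⟩ := exists_prime_orderOf_dvd_card' (G := ↥(P : Subgroup G)) 7
    (dvd_of_eq hP7.symm)
  obtain ⟨t0, ht0⟩ := exists_prime_orderOf_dvd_card'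
    (G := ↥(Subgroup.normalizer (P : Set G))) 2 (by rw [hN14]; norm_num)
  have hx7 : orderOf (x0 : G) = 7 := by rw [Subgroup.orderOf_coe, hx0]
  have ht2 : orderOf (t0 : G) = 2 := by rw [Subgroup.orderOf_coe, ht0]
  have hxP : (x0 : G) ∈ (P : Subgroup G) := x0.2
  have htN : (t0 : G) ∈ Subgroup.normalizer (P : Set G) := t0.2
  generalize (x0 : G) = x at hx7 hxP
  generalize (t0 : G) = t at ht2 htN
  refine ⟨x, t, hx7, ht2, ?_⟩
  have hzp : Subgroup.zpowers x = (P : Subgroup G) := by
    apply Subgroup.eq_of_le_of_card_ge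
    · rw [Subgroup.zpowers_le]
      exact hxP
    · rw [Nat.card_zpowers, hx7, hP7]
  have hyP : t * x * t⁻¹ ∈ (P : Subgroup G) :=
    ((Subgroup.mem_set_normalizer_iff.mp htN) x).mp hxP
  obtain ⟨k, hk⟩ : ∃ k : ℤ, x ^ k = t * x * t⁻¹ := by
    have h0 : t * x * t⁻¹ ∈ Subgroup.zpowers x := by
      rw [hzp]
      exact hyP
    exact Subgroup.mem_zpowers_iff.mp h0
  have htt : t * t = 1 := by
    have h0 := pow_orderOf_eq_one t
    rw [ht2, pow_two] at h0
    exact h0
  by_contra hne
  have hz1 : x * (t * x * t⁻¹) ≠ 1 := fun hz => hne (eq_inv_of_mul_eq_one_right hz)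
  have hzP : x * (t * x * t⁻¹) ∈ (P : Subgroup G) := mul_mem hxP hyP
  have hzt : t * (x * (t * x * t⁻¹)) * t⁻¹ = x * (t * x * t⁻¹) := by
    have e1 : t * (x * (t * x * t⁻¹)) * t⁻¹ =
        (t * x * t⁻¹) * ((t * t) * x * (t * t)⁻¹) := by group
    rw [e1, htt, one_mul, inv_one, mul_one, ← hk]
    exact ((Commute.refl x).zpow_left k).eq
  have hz7 : orderOf (x * (t * x * t⁻¹)) = 7 := by
    have hd : orderOf (x * (t * x * t⁻¹)) ∣ 7 := by
      have h0 := orderOf_dvd_natCard (⟨x * (t * x * t⁻¹), hzP⟩ : ↥(P : Subgroup G))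
      rwa [Subgroup.orderOf_mk, hP7] at h0
    rcases (Nat.dvd_prime (by norm_num : Nat.Prime 7)).mp hd with h1 | h7
    · exact absurd (orderOf_eq_one_iff.mp h1) hz1
    · exact h7
  have hzpz : Subgroup.zpowers (x * (t * x * t⁻¹)) = (P : Subgroup G) := by
    apply Subgroup.eq_of_le_of_card_ge
    · rw [Subgroup.zpowers_le]
      exact hzP
    · rw [Nat.card_zpowers, hz7, hP7]
  have htC : t ∈ Subgroup.centralizer (P : Set G) := by
    rw [Subgroup.mem_centralizer_iff]
    intro g hg
    have hg' : g ∈ Subgroup.zpowers (x * (t * x * t⁻¹)) := by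
      rw [hzpz]
      exact hg
    obtain ⟨j, rfl⟩ := Subgroup.mem_zpowers_iff.mp hg'
    have hcz : Commute t (x * (t * x * t⁻¹)) := by
      show t * (x * (t * x * t⁻¹)) = (x * (t * x * t⁻¹)) * t
      calc t * (x * (t * x * t⁻¹)) = (t * (x * (t * x * t⁻¹)) * t⁻¹) * t := by group
        _ = (x * (t * x * t⁻¹)) * t := by rw [hzt]
    exact (hcz.zpow_right j).eq.symm
  have hPC : (P : Subgroup G) ≤ Subgroup.centralizer (P : Set G) := by
    intro g hg
    rw [Subgroup.mem_centralizer_iff]
    intro g' hg'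
    have h1 : g ∈ Subgroup.zpowers x := by
      rw [hzp]
      exact hg
    have h2 : g' ∈ Subgroup.zpowers x := by
      rw [hzp]
      exact hg'
    obtain ⟨i, rfl⟩ := Subgroup.mem_zpowers_iff.mp h1
    obtain ⟨j, rfl⟩ := Subgroup.mem_zpowers_iff.mp h2
    exact (((Commute.refl x).zpow_left j).zpow_right i).eq
  have hK : Subgroup.normalizer (P : Set G) ≤ Subgroup.centralizer (P : Set G) := by
    have hKeq : Subgroup.centralizer (P : Set G) ⊓ Subgroup.normalizer (P : Set G) =
        Subgroup.normalizer (P : Set G) := by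
      apply Subgroup.eq_of_le_of_card_ge inf_le_right
      rw [hN14]
      have h7 : 7 ∣ Nat.card ↥(Subgroup.centralizer (P : Set G) ⊓
          Subgroup.normalizer (P : Set G)) := by
        have h0 := Subgroup.card_dvd_of_le
          (show (P : Subgroup G) ≤ Subgroup.centralizer (P : Set G) ⊓
            Subgroup.normalizer (P : Set G) from le_inf hPC Subgroup.le_normalizer)
        rwa [hP7] at h0
      have h2 : 2 ∣ Nat.card ↥(Subgroup.centralizer (P : Set G) ⊓
          Subgroup.normalizer (P : Set G)) := by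
        have h0 := orderOf_dvd_natCard (⟨t, Subgroup.mem_inf.mpr ⟨htC, htN⟩⟩ :
          ↥(Subgroup.centralizer (P : Set G) ⊓ Subgroup.normalizer (P : Set G)))
        rwa [Subgroup.orderOf_mk, ht2] at h0
      have hpos : 0 < Nat.card ↥(Subgroup.centralizer (P : Set G) ⊓
          Subgroup.normalizer (P : Set G)) := Nat.card_pos
      omega
    rw [← hKeq]
    exact inf_le_left
  exact no_burnside P (by rw [hP7]; norm_num) (by rw [hP7, h]; norm_num) hK

end Cfsg.Agent.Helper15.O504A2
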