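import Mathlib
import Cfsg.Prelude.Def_HallClasses
import Cfsg.Agent.Helper15.Subn

set_option autoImplicit false

/-!
Pronormality of the overgroups of Sylow `p`-subgroups in a group extension
(Guo–Maslova–Revin).  `cj x Q = x Q x⁻¹` is taken from `Helper15.Subn`.
General lemmas: `map_cj`, `pron_conj`, `pron_sub`, `pron_elt`, `pron_map`, `pron_lift`;
Frattini argument `frattini_elt`; the key step `key_A` and the assembly `pron_of_step`.
-/

namespace Cfsg.Agent.Helper15.Pron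

open Cfsg.Agent.Helper15.Subn

variable {G : Type*} [Group G]

theorem map_cj {G' : Type*} [Group G'] (f : G →* G') (g : G) (H : Subgroup G) :
    (cj g H).map f = cj (f g) (H.map f) := by
  ext y
  constructor
  · intro hy
    obtain ⟨z, hz, rfl⟩ := Subgroup.mem_map.mp hy
    rw [mem_cj] at hz ⊢
    refine Subgroup.mem_map.mpr ⟨g⁻¹ * z * g, hz, ?_⟩
    simp only [map_mul, map_inv]
  · intro hy
    rw [mem_cj] at hy
    obtain ⟨w, hw, hwy⟩ := Subgroup.mem_map.mp hy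
    refine Subgroup.mem_map.mpr ⟨g * w * g⁻¹, ?_, ?_⟩
    · rw [mem_cj]
      have e : g⁻¹ * (g * w * g⁻¹) * g = w := by group
      rw [e]
      exact hw
    · rw [map_mul, map_mul, map_inv, hwy]
      group

theorem cj_sup (g : G) (H K : Subgroup G) : cj g (H ⊔ K) = cj g H ⊔ cj g K :=
  Subgroup.map_sup H K _

theorem cj_self {x : G} {H : Subgroup G} (hx : x ∈ H) : cj x H = H :=
  cj_eq_iff.mpr (Subgroup.le_normalizer hx)

theorem cj_eq_of_le [Finite G] {g : G} {T : Subgroup G} (h : cj g T ≤ T) : cj g T = T := by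
  apply Subgroup.eq_of_le_of_card_ge h
  unfold cj
  rw [Subgroup.card_map_of_injective (MulAut.conj g).injective]

theorem subgroupOf_le {H K : Subgroup G} (N : Subgroup G) (h : H ≤ K) :
    H.subgroupOf N ≤ K.subgroupOf N :=
  fun _ hx => Subgroup.mem_subgroupOf.mpr (h (Subgroup.mem_subgroupOf.mp hx))

/-- pronormality is invariant under conjugation -/
theorem pron_conj {H : Subgroup G} (h : Cfsg.IsPronormal H) (c : G) :
    Cfsg.IsPronormal (cj c H) := by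
  intro g
  obtain ⟨x, hx, hxe⟩ := h (c⁻¹ * g * c)
  change x ∈ H ⊔ cj (c⁻¹ * g * c) H at hx
  change cj (c⁻¹ * g * c) H = cj x H at hxe
  change ∃ y ∈ cj c H ⊔ cj g (cj c H), cj g (cj c H) = cj y (cj c H)
  refine ⟨c * x * c⁻¹, ?_, ?_⟩
  · have h1 : c * x * c⁻¹ ∈ cj c (H ⊔ cj (c⁻¹ * g * c) H) := by
      rw [mem_cj]
      have e : c⁻¹ * (c * x * c⁻¹) * c = x := by group
      rw [e]
      exact hx
    rw [cj_sup, cj_mul] at h1
    have e2 : c * (c⁻¹ * g * c) = g * c := by group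
    rw [e2] at h1
    rw [cj_mul]
    exact h1
  · rw [cj_mul, cj_mul]
    have e1 : c * x * c⁻¹ * c = c * x := by group
    have e2 : g * c = c * (c⁻¹ * g * c) := by group
    rw [e1, e2, ← cj_mul, ← cj_mul c x, hxe]

/-- pronormality passes to a subgroup containing `K` -/
theorem pron_sub (M : Subgroup G) (K : Subgroup ↥M) (h : Cfsg.IsPronormal (K.map M.subtype)) :
    Cfsg.IsPronormal K := by
  intro a
  obtain ⟨x, hx, hxe⟩ := h (a : G)
  change x ∈ K.map M.subtype ⊔ cj (a : G) (K.map M.subtype) at hx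
  change cj (a : G) (K.map M.subtype) = cj x (K.map M.subtype) at hxe
  change ∃ y ∈ K ⊔ cj a K, cj a K = cj y K
  have h1 : cj (a : G) (K.map M.subtype) = (cj a K).map M.subtype := (map_cj M.subtype a K).symm
  rw [h1, ← Subgroup.map_sup] at hx
  obtain ⟨y, hy, rfl⟩ := Subgroup.mem_map.mp hx
  refine ⟨y, hy, ?_⟩
  apply Subgroup.map_injective M.subtype_injective
  rw [map_cj, map_cj]
  exact hxe

/-- elementwise form of pronormality of a subgroup of `M`, read inside `G` -/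
theorem pron_elt (M : Subgroup G) (K : Subgroup ↥M) (h : Cfsg.IsPronormal K) (m : G)
    (hm : m ∈ M) :
    ∃ x ∈ K.map M.subtype ⊔ cj m (K.map M.subtype), x ∈ M ∧
      cj m (K.map M.subtype) = cj x (K.map M.subtype) := by
  obtain ⟨y, hy, hye⟩ := h ⟨m, hm⟩
  change y ∈ K ⊔ cj (⟨m, hm⟩ : ↥M) K at hy
  change cj (⟨m, hm⟩ : ↥M) K = cj y K at hye
  have h1 : (cj (⟨m, hm⟩ : ↥M) K).map M.subtype = cj m (K.map M.subtype) :=
    map_cj M.subtype (⟨m, hm⟩ : ↥M) K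
  have h2 : (cj y K).map M.subtype = cj (y : G) (K.map M.subtype) := map_cj M.subtype y K
  refine ⟨(y : G), ?_, y.2, ?_⟩
  · have h3 : (y : G) ∈ (K ⊔ cj (⟨m, hm⟩ : ↥M) K).map M.subtype :=
      Subgroup.mem_map.mpr ⟨y, hy, rfl⟩
    rw [Subgroup.map_sup, h1] at h3
    exact h3
  · rw [← h1, ← h2, hye]

/-- pronormality passes to homomorphic images -/
theorem pron_map {G' : Type*} [Group G'] (f : G →* G') (hf : Function.Surjective f)
    {K : Subgroup G} (h : Cfsg.IsPronormal K) : Cfsg.IsPronormal (K.map f) := by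
  intro g'
  obtain ⟨g, rfl⟩ := hf g'
  obtain ⟨x, hx, hxe⟩ := h g
  change x ∈ K ⊔ cj g K at hx
  change cj g K = cj x K at hxe
  change ∃ y ∈ K.map f ⊔ cj (f g) (K.map f), cj (f g) (K.map f) = cj y (K.map f)
  refine ⟨f x, ?_, ?_⟩
  · rw [← map_cj, ← Subgroup.map_sup]
    exact Subgroup.mem_map.mpr ⟨x, hx, rfl⟩
  · rw [← map_cj, ← map_cj, hxe]

/-- pronormality lifts through a homomorphism whose kernel lies in `K` -/
theorem pron_lift {G' : Type*} [Group G'] (f : G →* G') {K : Subgroup G} (hker : f.ker ≤ K)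
    (h : Cfsg.IsPronormal (K.map f)) : Cfsg.IsPronormal K := by
  intro g
  obtain ⟨y, hy, hye⟩ := h (f g)
  change y ∈ K.map f ⊔ cj (f g) (K.map f) at hy
  change cj (f g) (K.map f) = cj y (K.map f) at hye
  change ∃ x ∈ K ⊔ cj g K, cj g K = cj x K
  rw [← map_cj, ← Subgroup.map_sup] at hy
  obtain ⟨x, hx, rfl⟩ := Subgroup.mem_map.mp hy
  refine ⟨x, hx, ?_⟩
  rw [← map_cj, ← map_cj] at hye
  have hk : ∀ z : G, f.ker ≤ cj z K := by
    intro z w hw
    rw [mem_cj]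
    apply hker
    apply MonoidHom.mem_ker.mpr
    rw [map_mul, map_mul, MonoidHom.mem_ker.mp hw, mul_one, map_inv, inv_mul_cancel]
  have h1 := congrArg (Subgroup.comap f) hye
  rw [Subgroup.comap_map_eq_self (hk g), Subgroup.comap_map_eq_self (hk x)] at h1
  exact h1

theorem cj_inf_le {H A : Subgroup G} [A.Normal] {h : G} (hh : h ∈ H) :
    cj h (H ⊓ A) ≤ H ⊓ A := by
  intro y hy
  rw [mem_cj] at hy
  have e : y = h * (h⁻¹ * y * h) * h⁻¹ := by group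
  rw [e]
  exact Subgroup.mem_inf.mpr
    ⟨H.mul_mem (H.mul_mem hh (Subgroup.mem_inf.mp hy).1) (H.inv_mem hh),
      ‹A.Normal›.conj_mem _ (Subgroup.mem_inf.mp hy).2 h⟩

section fin

variable [Finite G] {p : ℕ} [Fact p.Prime]

theorem cj_inf_eq {H A : Subgroup G} [A.Normal] {h : G} (hh : h ∈ H) :
    cj h (H ⊓ A) = H ⊓ A :=
  cj_eq_of_le (cj_inf_le hh)

/-- a Sylow subgroup of `G` containing a Sylow subgroup `T` of the normal subgroup `A`
normalises `T` -/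
theorem sylow_norm {A T : Subgroup G} [A.Normal] (hT : IsSyl p A T) (S : Sylow p G)
    (hTS : T ≤ S) : (S : Subgroup G) ≤ Subgroup.normalizer (T : Set G) := by
  have h1 : (S : Subgroup G) ⊓ A = T :=
    hT.2.2 _ (S.isPGroup'.to_le inf_le_left) inf_le_right (le_inf hTS hT.1)
  intro s hs
  rw [← cj_eq_iff, ← h1]
  exact cj_inf_eq hs

/-- Frattini argument, elementwise -/
theorem frattini_elt {B T : Subgroup G} (hT : IsSyl p B T) {c : G} (hc : cj c B = B) :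
    ∃ b ∈ B, b⁻¹ * c ∈ Subgroup.normalizer (T : Set G) := by
  have h1 : cj c T ≤ B := by
    rw [← hc]
    exact cj_mono hT.1
  obtain ⟨x, hx, hxT⟩ := syl_conj hT (cj_pg hT.2.1) h1
  refine ⟨x, hx, ?_⟩
  rw [← cj_eq_iff]
  apply cj_eq_of_le
  rw [← cj_mul]
  exact le_cj_iff.mp hxT

/-- the key step: conjugation by elements of `A` -/
theorem key_A {A T : Subgroup G} [A.Normal] (hT : IsSyl p A T)
    (hA : ∀ B : Subgroup G, T ≤ B → B ≤ A → ∀ a ∈ A,
      ∃ b ∈ B ⊔ cj a B, b ∈ A ∧ cj a B = cj b B)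
    (hN : ∀ K : Subgroup G, T ≤ K → K ≤ Subgroup.normalizer (T : Set G) →
      (∃ S : Sylow p G, (S : Subgroup G) ≤ K) →
      ∀ n ∈ Subgroup.normalizer (T : Set G), ∃ x ∈ K ⊔ cj n K, cj n K = cj x K)
    (H : Subgroup G) (S : Sylow p G) (hSH : (S : Subgroup G) ≤ H) (hTS : T ≤ S)
    (a : G) (ha : a ∈ A) : ∃ x ∈ H ⊔ cj a H, cj a H = cj x H := by
  have hTH : T ≤ H := hTS.trans hSH
  have hSN : (S : Subgroup G) ≤ Subgroup.normalizer (T : Set G) := sylow_norm hT S hTS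
  obtain ⟨B, hBdef⟩ : ∃ B : Subgroup G, B = H ⊓ A := ⟨_, rfl⟩
  have hTB : T ≤ B := by rw [hBdef]; exact le_inf hTH hT.1
  have hBA : B ≤ A := by rw [hBdef]; exact inf_le_right
  have hBH : B ≤ H := by rw [hBdef]; exact inf_le_left
  have hBn : ∀ h ∈ H, cj h B = B := by
    intro h hh
    rw [hBdef]
    exact cj_inf_eq hh
  have hTB' : IsSyl p B T :=
    ⟨hTB, hT.2.1, fun Q hQ hQB hTQ => hT.2.2 Q hQ (hQB.trans hBA) hTQ⟩
  -- step (a)
  obtain ⟨b, hb, -, hbe⟩ := hA B hTB hBA a ha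
  have hcB : cj (b⁻¹ * a) B = B := by
    rw [← cj_mul, hbe, cj_mul, inv_mul_cancel, cj_one]
  -- step (b)
  obtain ⟨b₁, hb₁, hn₁⟩ := frattini_elt hTB' hcB
  obtain ⟨n₁, hn₁def⟩ : ∃ n₁ : G, n₁ = b₁⁻¹ * (b⁻¹ * a) := ⟨_, rfl⟩
  rw [← hn₁def] at hn₁
  have hn₁B : cj n₁ B = B := by
    rw [hn₁def, ← cj_mul, hcB]
    exact hBn _ (H.inv_mem (hBH hb₁))
  -- step (c)
  obtain ⟨K, hKdef⟩ : ∃ K : Subgroup G, K = H ⊓ Subgroup.normalizer (T : Set G) := ⟨_, rfl⟩
  have hKH : K ≤ H := by rw [hKdef]; exact inf_le_left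
  have hKN : K ≤ Subgroup.normalizer (T : Set G) := by rw [hKdef]; exact inf_le_right
  have hTK : T ≤ K := by rw [hKdef]; exact le_inf hTH Subgroup.le_normalizer
  have hSK : (S : Subgroup G) ≤ K := by rw [hKdef]; exact le_inf hSH hSN
  obtain ⟨x, hx, hxe⟩ := hN K hTK hKN ⟨S, hSK⟩ n₁ hn₁
  -- step (d)
  have hHBK : H = B ⊔ K := by
    apply le_antisymm
    · intro h hh
      obtain ⟨b', hb', hn'⟩ := frattini_elt hTB' (hBn h hh)
      have e : h = b' * (b'⁻¹ * h) := by group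
      rw [e]
      apply Subgroup.mul_mem_sup hb'
      rw [hKdef]
      exact Subgroup.mem_inf.mpr ⟨H.mul_mem (H.inv_mem (hBH hb')) hh, hn'⟩
    · exact sup_le hBH hKH
  -- step (e)
  have hHnB : H ≤ Subgroup.normalizer (B : Set G) := fun h hh => cj_eq_iff.mp (hBn h hh)
  have hxB : cj x B = B := by
    apply cj_eq_iff.mpr
    have h1 : K ⊔ cj n₁ K ≤ Subgroup.normalizer (B : Set G) :=
      sup_le (hKH.trans hHnB) (cj_le (cj_eq_iff.mp hn₁B) (hKH.trans hHnB))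
    exact h1 hx
  -- step (f)
  have hf : cj n₁ H = cj x H := by
    rw [hHBK, cj_sup, cj_sup, hn₁B, hxB, hxe]
  -- step (g)
  obtain ⟨J, hJdef⟩ : ∃ J : Subgroup G, J = H ⊔ cj a H := ⟨_, rfl⟩
  have hHJ : H ≤ J := by rw [hJdef]; exact le_sup_left
  have haJ : cj a H ≤ J := by rw [hJdef]; exact le_sup_right
  have hbJ : b ∈ J := by
    have h1 : B ⊔ cj a B ≤ J := sup_le (hBH.trans hHJ) ((cj_mono hBH).trans haJ)
    exact h1 hb
  have hb₁J : b₁ ∈ J := hHJ (hBH hb₁)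
  have e1 : a = b * b₁ * n₁ := by rw [hn₁def]; group
  have hn₁J : cj n₁ H ≤ J := by
    have e2 : n₁ = (b * b₁)⁻¹ * a := by rw [hn₁def]; group
    rw [e2, ← cj_mul]
    exact cj_le (J.inv_mem (J.mul_mem hbJ hb₁J)) haJ
  have hxJ : x ∈ J := by
    have h1 : K ⊔ cj n₁ K ≤ J := sup_le (hKH.trans hHJ) ((cj_mono hKH).trans hn₁J)
    exact h1 hx
  refine ⟨b * b₁ * x, ?_, ?_⟩
  · rw [← hJdef]
    exact J.mul_mem (J.mul_mem hbJ hb₁J) hxJ
  · rw [← cj_mul (b * b₁) x, ← hf, cj_mul, ← e1]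

/-- reduction of a general conjugating element to an element of `A` -/
theorem finish {A H : Subgroup G} [A.Normal]
    (hkey : ∀ a ∈ A, ∃ x ∈ H ⊔ cj a H, cj a H = cj x H) (g₀ y s : G)
    (hy : y ∈ H ⊔ cj g₀ H) (hs : cj s H = H) (ha : s⁻¹ * (y⁻¹ * g₀) ∈ A) :
    ∃ x ∈ H ⊔ cj g₀ H, cj g₀ H = cj x H := by
  obtain ⟨a'', ha''def⟩ : ∃ a'' : G, a'' = s * (s⁻¹ * (y⁻¹ * g₀)) * s⁻¹ := ⟨_, rfl⟩
  have ha'' : a'' ∈ A := by
    rw [ha''def]
    exact ‹A.Normal›.conj_mem _ ha s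
  obtain ⟨x, hx, hxe⟩ := hkey a'' ha''
  have e0 : g₀ = y * a'' * s := by rw [ha''def]; group
  have e1 : cj g₀ H = cj y (cj a'' H) := by
    have e3 : cj g₀ H = cj (y * a'' * s) H := by rw [← e0]
    rw [e3, ← cj_mul, hs, cj_mul]
  obtain ⟨J, hJdef⟩ : ∃ J : Subgroup G, J = H ⊔ cj g₀ H := ⟨_, rfl⟩
  rw [← hJdef] at hy ⊢
  have hHJ : H ≤ J := by rw [hJdef]; exact le_sup_left
  have hgJ : cj g₀ H ≤ J := by rw [hJdef]; exact le_sup_right
  have h2 : cj a'' H ≤ J := by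
    have e2 : cj a'' H = cj y⁻¹ (cj g₀ H) := by
      rw [e1, cj_mul, inv_mul_cancel, cj_one]
    rw [e2]
    exact cj_le (J.inv_mem hy) hgJ
  refine ⟨y * x, J.mul_mem hy ((sup_le hHJ h2) hx), ?_⟩
  rw [e1, hxe, cj_mul]

/-- the hypothesis on `A`, read inside `G` -/
theorem hA_elt (A : Subgroup G)
    (hA : ∀ K : Subgroup ↥A, (∃ P : Sylow p ↥A, (P : Subgroup ↥A) ≤ K) → Cfsg.IsPronormal K)
    (T : Subgroup G) (hT : ∃ P : Sylow p ↥A, (P : Subgroup ↥A).map A.subtype = T) :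
    ∀ B : Subgroup G, T ≤ B → B ≤ A → ∀ a ∈ A,
      ∃ b ∈ B ⊔ cj a B, b ∈ A ∧ cj a B = cj b B := by
  intro B hTB hBA a ha
  obtain ⟨P, hP⟩ := hT
  have h1 : (P : Subgroup ↥A) ≤ B.subgroupOf A := by
    apply Subgroup.map_le_iff_le_comap.mp
    rw [hP]
    exact hTB
  have h2 := pron_elt A (B.subgroupOf A) (hA _ ⟨P, h1⟩) a ha
  rw [Subgroup.map_subgroupOf_eq_of_le hBA] at h2
  exact h2

/-- the hypothesis on `N/T`, read inside `G` -/
theorem hN_elt (N T : Subgroup G) [(T.subgroupOf N).Normal]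
    (hi : ∀ K : Subgroup (↥N ⧸ T.subgroupOf N),
      (∃ P : Sylow p (↥N ⧸ T.subgroupOf N), (P : Subgroup (↥N ⧸ T.subgroupOf N)) ≤ K) →
      Cfsg.IsPronormal K) :
    ∀ K : Subgroup G, T ≤ K → K ≤ N → (∃ S : Sylow p G, (S : Subgroup G) ≤ K) →
      ∀ n ∈ N, ∃ x ∈ K ⊔ cj n K, cj n K = cj x K := by
  intro K hTK hKN ⟨S, hSK⟩ n hn
  have hSN : (S : Subgroup G) ≤ N := hSK.trans hKN
  obtain ⟨π, hπ⟩ : ∃ π : ↥N →* ↥N ⧸ T.subgroupOf N, π = QuotientGroup.mk' (T.subgroupOf N) :=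
    ⟨_, rfl⟩
  have hsurj : Function.Surjective π := by rw [hπ]; exact QuotientGroup.mk'_surjective _
  have hker : π.ker = T.subgroupOf N := by rw [hπ]; exact QuotientGroup.ker_mk' _
  have h1 : Cfsg.IsPronormal ((K.subgroupOf N).map π) := by
    apply hi
    refine ⟨(S.subtype hSN).mapSurjective hsurj, ?_⟩
    rw [Sylow.coe_mapSurjective, Sylow.coe_subtype]
    exact Subgroup.map_mono (subgroupOf_le N hSK)
  have h2 : Cfsg.IsPronormal (K.subgroupOf N) := by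
    apply pron_lift π _ h1
    rw [hker]
    exact subgroupOf_le N hTK
  have h3 := pron_elt N (K.subgroupOf N) h2 n hn
  rw [Subgroup.map_subgroupOf_eq_of_le hKN] at h3
  obtain ⟨x, hx, -, hxe⟩ := h3
  exact ⟨x, hx, hxe⟩

/-- if the overgroups of Sylow subgroups of `G` are pronormal, so are those of `N_G(T)/T` -/
theorem dir1 (A T : Subgroup G) [A.Normal] (hT : IsSyl p A T) (N : Subgroup G)
    (hN : N = Subgroup.normalizer (T : Set G)) [(T.subgroupOf N).Normal]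
    (h1 : ∀ K : Subgroup G, (∃ P : Sylow p G, (P : Subgroup G) ≤ K) → Cfsg.IsPronormal K) :
    ∀ K : Subgroup (↥N ⧸ T.subgroupOf N),
      (∃ P : Sylow p (↥N ⧸ T.subgroupOf N), (P : Subgroup (↥N ⧸ T.subgroupOf N)) ≤ K) →
      Cfsg.IsPronormal K := by
  intro Kb ⟨Pb, hPb⟩
  obtain ⟨π, hπ⟩ : ∃ π : ↥N →* ↥N ⧸ T.subgroupOf N, π = QuotientGroup.mk' (T.subgroupOf N) :=
    ⟨_, rfl⟩
  have hsurj : Function.Surjective π := by rw [hπ]; exact QuotientGroup.mk'_surjective _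
  obtain ⟨S₀, hTS₀⟩ := hT.2.1.exists_le_sylow
  have hS₀N : (S₀ : Subgroup G) ≤ N := by rw [hN]; exact sylow_norm hT S₀ hTS₀
  obtain ⟨nb, hnb⟩ := MulAction.exists_smul_eq (↥N ⧸ T.subgroupOf N)
    ((S₀.subtype hS₀N).mapSurjective hsurj) Pb
  obtain ⟨n, rfl⟩ := hsurj nb
  have hPK : (((n : G) • S₀ : Sylow p G) : Subgroup G) ≤ (Kb.comap π).map N.subtype := by
    rw [Sylow.coe_subgroup_smul, smul_eq_cj]
    intro y hy
    rw [mem_cj] at hy
    have hyN : y ∈ N := by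
      have e : y = (n : G) * ((n : G)⁻¹ * y * n) * (n : G)⁻¹ := by group
      rw [e]
      exact N.mul_mem (N.mul_mem n.2 (hS₀N hy)) (N.inv_mem n.2)
    refine Subgroup.mem_map.mpr ⟨⟨y, hyN⟩, ?_, rfl⟩
    rw [Subgroup.mem_comap]
    apply hPb
    rw [← hnb, Sylow.coe_subgroup_smul, smul_eq_cj, Sylow.coe_mapSurjective, Sylow.coe_subtype,
      ← map_cj]
    apply Subgroup.mem_map_of_mem
    rw [mem_cj, Subgroup.mem_subgroupOf]
    exact hy
  have h2 : Cfsg.IsPronormal ((Kb.comap π).map N.subtype) := h1 _ ⟨_, hPK⟩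
  have h3 : Cfsg.IsPronormal (Kb.comap π) := pron_sub N _ h2
  have h4 := pron_map π hsurj h3
  rw [Subgroup.map_comap_eq_self_of_surjective hsurj] at h4
  exact h4

/-- assembly: from the key step and a reduction to elements of `A` to pronormality -/
theorem pron_of_step (A T : Subgroup G) [A.Normal] (hT : IsSyl p A T)
    (hA' : ∀ B : Subgroup G, T ≤ B → B ≤ A → ∀ a ∈ A,
      ∃ b ∈ B ⊔ cj a B, b ∈ A ∧ cj a B = cj b B)
    (hN' : ∀ K : Subgroup G, T ≤ K → K ≤ Subgroup.normalizer (T : Set G) →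
      (∃ S : Sylow p G, (S : Subgroup G) ≤ K) →
      ∀ n ∈ Subgroup.normalizer (T : Set G), ∃ x ∈ K ⊔ cj n K, cj n K = cj x K)
    (step : ∀ (H : Subgroup G) (S : Sylow p G), (S : Subgroup G) ≤ H → ∀ g₀ : G,
      ∃ y s : G, y ∈ H ⊔ cj g₀ H ∧ cj s H = H ∧ s⁻¹ * (y⁻¹ * g₀) ∈ A) :
    ∀ K : Subgroup G, (∃ P : Sylow p G, (P : Subgroup G) ≤ K) → Cfsg.IsPronormal K := by
  intro K ⟨P, hPK⟩
  obtain ⟨P', hTP'⟩ := hT.2.1.exists_le_sylow
  obtain ⟨g, hg⟩ := MulAction.exists_smul_eq G P P'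
  have hP' : (P' : Subgroup G) = cj g (P : Subgroup G) := by
    rw [← hg, Sylow.coe_subgroup_smul, smul_eq_cj]
  have hH : Cfsg.IsPronormal (cj g K) := by
    intro g₀
    change ∃ x ∈ cj g K ⊔ cj g₀ (cj g K), cj g₀ (cj g K) = cj x (cj g K)
    have hSH : (P' : Subgroup G) ≤ cj g K := by rw [hP']; exact cj_mono hPK
    obtain ⟨y, s, hy, hs, ha⟩ := step (cj g K) P' hSH g₀
    exact finish (fun a ha => key_A hT hA' hN' (cj g K) P' hSH hTP' a ha) g₀ y s hy hs ha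
  have h2 := pron_conj hH g⁻¹
  rw [cj_mul, inv_mul_cancel, cj_one] at h2
  exact h2

end fin

end Cfsg.Agent.Helper15.Pron
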