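import Mathlib
import Cfsg.Agent.S0081
import Cfsg.Agent.Helper23.PSolv

/-!
Piece [b] for S4172 (helper26): with `O_{p'}(G) = 1` and `core_G(Frat P) = 1`, no nontrivial
normal subgroup of `G` meets the Sylow `p`-subgroup `P` inside `Frat P`.
-/

namespace Cfsg.Agent.Helper15.S4172b

theorem normal_not_le {G : Type*} [Group G] [Finite G] (p : ℕ) [Fact p.Prime] (P : Sylow p G)
    (hcore : Cfsg.pPrimeCore p G = ⊥)
    (hfrat : ((frattini ↥(P : Subgroup G)).map (P : Subgroup G).subtype).normalCore = ⊥)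
    (K : Subgroup G) (hK : K.Normal) (hK1 : K ≠ ⊥) :
    ¬ (K ⊓ (P : Subgroup G) ≤ (frattini ↥(P : Subgroup G)).map (P : Subgroup G).subtype) := by
  intro h
  have := hK
  have hp : p.Prime := Fact.out
  have hcop : (Nat.card (Cfsg.pResidual p ↥K)).Coprime p := Cfsg.Agent.S0081.tate_core P K h
  have hMn : ((Cfsg.pResidual p ↥K).map K.subtype).Normal :=
    Cfsg.Agent.Helper14.map_pResidual_normal p K
  have hMcop : (Nat.card ((Cfsg.pResidual p ↥K).map K.subtype)).Coprime p := by
    rw [Subgroup.card_map_of_injective K.subtype_injective]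
    exact hcop
  have hMle : (Cfsg.pResidual p ↥K).map K.subtype ≤ Cfsg.pPrimeCore p G :=
    Cfsg.Agent.Helper23.le_pPrimeCore hMn hMcop
  rw [hcore] at hMle
  have hres : Cfsg.pResidual p ↥K = ⊥ := by
    rw [eq_bot_iff]
    intro y hy
    have h1 : K.subtype y ∈ (Cfsg.pResidual p ↥K).map K.subtype :=
      Subgroup.mem_map_of_mem _ hy
    have h2 := hMle h1
    rw [Subgroup.mem_bot] at h2 ⊢
    exact K.subtype_injective (by rw [h2, map_one])
  have hKp : IsPGroup p ↥K := by
    intro g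
    obtain ⟨k, m, hm, hkm⟩ :=
      Nat.exists_eq_pow_mul_and_not_dvd (orderOf_pos g).ne' p hp.ne_one
    refine ⟨k, ?_⟩
    have hd : orderOf (g ^ p ^ k) ∣ m := by
      apply orderOf_dvd_of_pow_eq_one
      rw [← pow_mul, ← hkm, pow_orderOf_eq_one]
    have hmem : g ^ p ^ k ∈ Cfsg.pResidual p ↥K := by
      show g ^ p ^ k ∈ Subgroup.closure {g : ↥K | Nat.Coprime (orderOf g) p}
      apply Subgroup.subset_closure
      exact Nat.Coprime.coprime_dvd_left hd ((Nat.Prime.coprime_iff_not_dvd hp).mpr hm).symm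
    rw [hres, Subgroup.mem_bot] at hmem
    exact hmem
  have hKP : K ≤ (P : Subgroup G) := by
    have h1 : IsPGroup p ↥(K ⊔ (P : Subgroup G)) :=
      IsPGroup.to_sup_of_normal_left hKp P.isPGroup'
    have h2 : K ⊔ (P : Subgroup G) = (P : Subgroup G) := P.is_maximal' h1 le_sup_right
    rw [← h2]
    exact le_sup_left
  have hKPhi : K ≤ (frattini ↥(P : Subgroup G)).map (P : Subgroup G).subtype :=
    (le_inf le_rfl hKP).trans h
  have hKcore : K ≤ ((frattini ↥(P : Subgroup G)).map (P : Subgroup G).subtype).normalCore :=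
    Subgroup.normal_le_normalCore.mpr hKPhi
  rw [hfrat] at hKcore
  exact hK1 (le_bot_iff.mp hKcore)

end Cfsg.Agent.Helper15.S4172b
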