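import Cfsg.Agent.Helper15.Subn

set_option autoImplicit false

/-!
Casolo's count, relative form: for `K ≤ G`, a Sylow `p`-subgroup `P` of `K` and `H ≤ K`,
`#{g ∈ K | some g-invariant p-subgroup of K contains H} = #{x ∈ K | H ≤ x P x⁻¹}` (`main`).
-/

namespace Cfsg.Agent.Helper15.Subn

variable {G : Type*} [Group G]

/-- some `g`-invariant `p`-subgroup of `K` contains `H` -/
def Inv (p : ℕ) (K H : Subgroup G) (g : G) : Prop :=
  ∃ M : Subgroup G, M ≤ K ∧ IsPGroup p M ∧ H ≤ M ∧ g ∈ Subgroup.normalizer (M : Set G)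

open Classical in
noncomputable def sC [Fintype G] (p : ℕ) (K H : Subgroup G) : ℤ :=
  ((Finset.univ.filter (fun g : G => g ∈ K ∧ Inv p K H g)).card : ℤ)

open Classical in
noncomputable def tC [Fintype G] (K P H : Subgroup G) : ℤ :=
  ((Finset.univ.filter (fun x : G => x ∈ K ∧ H ≤ cj x P)).card : ℤ)

open Classical in
theorem sC_eq [Fintype G] (p : ℕ) (K H : Subgroup G) :
    sC p K H = ∑ g : G, if (g ∈ K ∧ Inv p K H g) then (1 : ℤ) else 0 := by
  unfold sC; rw [Finset.natCast_card_filter]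

open Classical in
theorem tC_eq [Fintype G] (K P H : Subgroup G) :
    tC K P H = ∑ x : G, if (x ∈ K ∧ H ≤ cj x P) then (1 : ℤ) else 0 := by
  unfold tC; rw [Finset.natCast_card_filter]

open Classical in
theorem t_sum [Fintype G] (m : Subgroup G → ℤ) (H N : Subgroup G)
    (hm : ∀ (s : Finset (Subgroup G)) (D : Subgroup G), (∀ Q, Q ∈ s ↔ H ≤ Q ∧ Q ≤ D) →
      ∑ Q ∈ s, m Q = if H = D then 1 else 0)
    (I : Finset (Subgroup G)) (hI : ∀ Q, Q ∈ I ↔ H ≤ Q ∧ Q ≤ N)
    (K P : Subgroup G) (hyp : ∀ x ∈ K, H ≤ cj x P → H < N ⊓ cj x P) :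
    ∑ Q ∈ I, m Q * tC K P Q = 0 := by
  simp only [tC_eq, Finset.mul_sum]
  rw [Finset.sum_comm]
  apply Finset.sum_eq_zero
  intro x _
  by_cases hx : x ∈ K
  · have e : ∑ Q ∈ I, m Q * (if (x ∈ K ∧ Q ≤ cj x P) then (1 : ℤ) else 0)
        = ∑ Q ∈ I.filter (fun Q => Q ≤ cj x P), m Q := by
      rw [Finset.sum_filter]
      apply Finset.sum_congr rfl
      intro Q _
      by_cases hQ : Q ≤ cj x P
      · simp [hx, hQ]
      · simp [hQ]
    rw [e, hm (I.filter (fun Q => Q ≤ cj x P)) (N ⊓ cj x P) (by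
      intro Q; rw [Finset.mem_filter, hI, le_inf_iff, and_assoc])]
    rw [if_neg]
    intro h
    have h1 : H ≤ cj x P := h.le.trans inf_le_right
    exact absurd h (ne_of_lt (hyp x hx h1))
  · apply Finset.sum_eq_zero
    intro Q _
    simp [hx]

open Classical in
theorem main [Fintype G] (p : ℕ) [Fact p.Prime] (K : Subgroup G) :
    ∀ P : Subgroup G, IsSyl p K P → ∀ H : Subgroup G, H ≤ K → sC p K H = tC K P H := by
  induction K using WellFoundedLT.induction with
  | ind K ihK =>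
  intro P hP H
  induction H using WellFoundedGT.induction with
  | ind H ihH =>
  intro hHK
  by_cases hHp : IsPGroup p H
  swap
  · have e1 : sC p K H = 0 := by
      unfold sC
      have : Finset.univ.filter (fun g : G => g ∈ K ∧ Inv p K H g) = ∅ := by
        rw [Finset.filter_eq_empty_iff]
        rintro g - ⟨-, M, -, hM, hHM, -⟩
        exact hHp (hM.to_le hHM)
      rw [this]; simp
    have e2 : tC K P H = 0 := by
      unfold tC
      have : Finset.univ.filter (fun x : G => x ∈ K ∧ H ≤ cj x P) = ∅ := by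
        rw [Finset.filter_eq_empty_iff]
        rintro x - ⟨-, hx⟩
        exact hHp ((cj_pg hP.2.1).to_le hx)
      rw [this]; simp
    rw [e1, e2]
  by_cases hnorm : K ≤ Subgroup.normalizer (H : Set G)
  · -- `H` normal in `K`
    have e1 : Finset.univ.filter (fun g : G => g ∈ K ∧ Inv p K H g)
        = Finset.univ.filter (fun g : G => g ∈ K) := by
      apply Finset.filter_congr
      intro g _
      constructor
      · exact fun h => h.1
      · exact fun h => ⟨h, H, hHK, hHp, le_rfl, hnorm h⟩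
    have e2 : Finset.univ.filter (fun x : G => x ∈ K ∧ H ≤ cj x P)
        = Finset.univ.filter (fun g : G => g ∈ K) := by
      apply Finset.filter_congr
      intro x _
      constructor
      · exact fun h => h.1
      · intro hx
        refine ⟨hx, ?_⟩
        obtain ⟨x₀, hx₀, hH₀⟩ := syl_conj hP hHp hHK
        intro h hh
        rw [mem_cj]
        have hn : x₀ * x⁻¹ ∈ Subgroup.normalizer (H : Set G) :=
          hnorm (K.mul_mem hx₀ (K.inv_mem hx))
        have h2 : (x₀ * x⁻¹) * h * (x₀ * x⁻¹)⁻¹ ∈ H :=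
          ((Subgroup.mem_normalizer_iff).mp hn h).mp hh
        have h3 := hH₀ h2
        rw [mem_cj] at h3
        have e : x₀⁻¹ * (x₀ * x⁻¹ * h * (x₀ * x⁻¹)⁻¹) * x₀ = x⁻¹ * h * x := by group
        rwa [e] at h3
    unfold sC tC
    rw [e1, e2]
  by_cases hsyl : ∃ x₀ ∈ K, H = cj x₀ P
  · -- `H` is a Sylow subgroup of `K`
    obtain ⟨x₀, hx₀, hHx₀⟩ := hsyl
    have hHsyl : IsSyl p K H := by rw [hHx₀]; exact syl_cj hP hx₀
    have e1 : Finset.univ.filter (fun g : G => g ∈ K ∧ Inv p K H g)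
        = Finset.univ.filter (fun g : G => g ∈ K ∧ g ∈ Subgroup.normalizer (H : Set G)) := by
      apply Finset.filter_congr
      intro g _
      constructor
      · rintro ⟨hg, M, hMK, hM, hHM, hgM⟩
        have hMH := hHsyl.2.2 M hM hMK hHM
        rw [hMH] at hgM
        exact ⟨hg, hgM⟩
      · rintro ⟨hg, hgN⟩
        exact ⟨hg, H, hHK, hHp, le_rfl, hgN⟩
    have e2 : (Finset.univ.filter (fun x : G => x ∈ K ∧ H ≤ cj x P)).card
        = (Finset.univ.filter
            (fun g : G => g ∈ K ∧ g ∈ Subgroup.normalizer (H : Set G))).card := by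
      apply Finset.card_bij (fun x _ => x * x₀⁻¹)
      · intro x hx
        rw [Finset.mem_filter] at hx ⊢
        obtain ⟨-, hxK, hHx⟩ := hx
        refine ⟨Finset.mem_univ _, K.mul_mem hxK (K.inv_mem hx₀), ?_⟩
        have h1 : cj x P = H := hHsyl.2.2 _ (cj_pg hP.2.1) (cj_le hxK hP.1) hHx
        rw [← cj_eq_iff]
        calc cj (x * x₀⁻¹) H = cj (x * x₀⁻¹) (cj x₀ P) := by rw [← hHx₀]
          _ = cj x P := by rw [cj_mul, inv_mul_cancel_right]
          _ = H := h1
      · intro a _ b _ hab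
        exact mul_right_cancel hab
      · intro g hg
        rw [Finset.mem_filter] at hg
        obtain ⟨-, hgK, hgN⟩ := hg
        refine ⟨g * x₀, ?_, by simp⟩
        rw [Finset.mem_filter]
        refine ⟨Finset.mem_univ _, K.mul_mem hgK hx₀, ?_⟩
        have e : cj (g * x₀) P = H := by
          rw [← cj_mul, ← hHx₀, cj_eq_iff.mpr hgN]
        exact e.ge
    unfold sC tC
    rw [e1, e2]
  -- general case
  push Not at hsyl
  obtain ⟨N, hNdef⟩ : ∃ N : Subgroup G, N = Subgroup.normalizer (H : Set G) ⊓ K := ⟨_, rfl⟩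
  have hNK : N ≤ K := by rw [hNdef]; exact inf_le_right
  have hNn : N ≤ Subgroup.normalizer (H : Set G) := by rw [hNdef]; exact inf_le_left
  have hNlt : N < K := lt_of_le_of_ne hNK (fun h => hnorm (by rw [← h]; exact hNn))
  have hHN : H ≤ N := by rw [hNdef]; exact le_inf Subgroup.le_normalizer hHK
  have hmemN : ∀ g, g ∈ Subgroup.normalizer (H : Set G) → g ∈ K → g ∈ N := by
    intro g h1 h2; rw [hNdef]; exact Subgroup.mem_inf.mpr ⟨h1, h2⟩
  have hleN : ∀ D : Subgroup G, D ≤ Subgroup.normalizer (H : Set G) → D ≤ K → D ≤ N := by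
    intro D h1 h2; rw [hNdef]; exact le_inf h1 h2
  obtain ⟨m, hm⟩ := exists_mob H
  obtain ⟨P₁, hP₁⟩ := syl_exists p N
  obtain ⟨I, hI⟩ : ∃ I : Finset (Subgroup G), ∀ Q, Q ∈ I ↔ H ≤ Q ∧ Q ≤ N :=
    ⟨(Set.toFinite {Q : Subgroup G | H ≤ Q ∧ Q ≤ N}).toFinset, fun Q => by simp⟩
  -- T side for `(K, P)`
  have hT1 : ∑ Q ∈ I, m Q * tC K P Q = 0 := by
    apply t_sum m H N hm I hI K P
    intro x hx hHx
    have hlt : H < cj x P := lt_of_le_of_ne hHx (hsyl x hx)
    have h1 := norm_grow (cj_pg hP.2.1) hlt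
    refine lt_of_lt_of_le h1 ?_
    exact le_inf (hleN _ inf_le_left (inf_le_right.trans (cj_le hx hP.1))) inf_le_right
  -- T side for `(N, P₁)`
  have hT2 : ∑ Q ∈ I, m Q * tC N P₁ Q = 0 := by
    apply t_sum m H N hm I hI N P₁
    intro x hx hHx
    have hne : H ≠ cj x P₁ := by
      intro heq
      have hsylH : IsSyl p N H := by rw [heq]; exact syl_cj hP₁ hx
      obtain ⟨x', hx', hHx'⟩ := syl_conj hP hHp hHK
      have hlt : H < cj x' P := lt_of_le_of_ne hHx' (hsyl x' hx')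
      have h1 := norm_grow (cj_pg hP.2.1) hlt
      have h2 : Subgroup.normalizer (H : Set G) ⊓ cj x' P ≤ N :=
        hleN _ inf_le_left (inf_le_right.trans (cj_le hx' hP.1))
      have h3 := hsylH.2.2 _ ((cj_pg hP.2.1).to_le inf_le_right) h2 h1.le
      exact absurd h3 (ne_of_gt h1)
    have hlt : H < cj x P₁ := lt_of_le_of_ne hHx hne
    exact lt_of_lt_of_le hlt (le_inf (cj_le hx hP₁.1) le_rfl)
  -- S side
  have hS : ∑ Q ∈ I, m Q * sC p K Q = ∑ Q ∈ I, m Q * sC p N Q := by
    simp only [sC_eq, Finset.mul_sum]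
    rw [Finset.sum_comm, Finset.sum_comm (s := I)]
    apply Finset.sum_congr rfl
    intro g _
    by_cases hgN : g ∈ N
    · apply Finset.sum_congr rfl
      intro Q hQ
      have hQ' := (hI Q).mp hQ
      have hiff : (g ∈ K ∧ Inv p K Q g) ↔ (g ∈ N ∧ Inv p N Q g) := by
        constructor
        · rintro ⟨-, M, hMK, hM, hQM, hgM⟩
          refine ⟨hgN, M ⊓ N, inf_le_right, hM.to_le inf_le_left, le_inf hQM hQ'.2, ?_⟩
          exact Subgroup.inf_normalizer_le_normalizer_inf
            (Subgroup.mem_inf.mpr ⟨hgM, Subgroup.le_normalizer hgN⟩)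
        · rintro ⟨-, M, hMN, hM, hQM, hgM⟩
          exact ⟨hNK hgN, M, hMN.trans hNK, hM, hQM, hgM⟩
      by_cases h : (g ∈ K ∧ Inv p K Q g)
      · rw [if_pos h, if_pos (hiff.mp h)]
      · rw [if_neg h, if_neg (fun h' => h (hiff.mpr h'))]
    · have hR : ∑ Q ∈ I, m Q * (if (g ∈ N ∧ Inv p N Q g) then (1 : ℤ) else 0) = 0 := by
        apply Finset.sum_eq_zero; intro Q _; simp [hgN]
      rw [hR]
      by_cases hgK : g ∈ K
      · have e : ∑ Q ∈ I, m Q * (if (g ∈ K ∧ Inv p K Q g) then (1 : ℤ) else 0)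
            = ∑ Q ∈ I.filter (fun Q => Inv p K Q g), m Q := by
          rw [Finset.sum_filter]
          apply Finset.sum_congr rfl
          intro Q _
          by_cases hQ : Inv p K Q g
          · simp [hgK, hQ]
          · simp [hQ]
        rw [e]
        by_cases hemp : I.filter (fun Q => Inv p K Q g) = ∅
        · rw [hemp, Finset.sum_empty]
        · obtain ⟨Q₁, hQ₁⟩ := Finset.nonempty_iff_ne_empty.mpr hemp
          rw [Finset.mem_filter] at hQ₁
          obtain ⟨hQ₁I, M₁, hM₁K, hM₁, hQ₁M₁, hgM₁⟩ := hQ₁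
          have hHQ₁ := ((hI Q₁).mp hQ₁I).1
          obtain ⟨𝓜, h𝓜⟩ : ∃ 𝓜 : Set (Subgroup G), ∀ M, M ∈ 𝓜 ↔
              (M ≤ K ∧ IsPGroup p M ∧ H ≤ M ∧ g ∈ Subgroup.normalizer (M : Set G)) :=
            ⟨{M | M ≤ K ∧ IsPGroup p M ∧ H ≤ M ∧ g ∈ Subgroup.normalizer (M : Set G)},
              fun M => Iff.rfl⟩
          have hM₁mem : M₁ ∈ 𝓜 := (h𝓜 M₁).mpr ⟨hM₁K, hM₁, hHQ₁.trans hQ₁M₁, hgM₁⟩
          obtain ⟨R, hRdef⟩ : ∃ R : Subgroup G, R = sInf 𝓜 := ⟨_, rfl⟩
          have hRM : ∀ M ∈ 𝓜, R ≤ M := fun M hM => by rw [hRdef]; exact sInf_le hM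
          have hRK : R ≤ K := (hRM M₁ hM₁mem).trans hM₁K
          have hRp : IsPGroup p R := hM₁.to_le (hRM M₁ hM₁mem)
          have hHR : H ≤ R := by
            rw [hRdef]; exact le_sInf (fun M hM => ((h𝓜 M).mp hM).2.2.1)
          have hgR : g ∈ Subgroup.normalizer (R : Set G) := by
            rw [Subgroup.mem_normalizer_iff]
            intro h
            rw [hRdef, Subgroup.mem_sInf, Subgroup.mem_sInf]
            constructor
            · intro hh M hM
              exact ((Subgroup.mem_normalizer_iff).mp ((h𝓜 M).mp hM).2.2.2 h).mp (hh M hM)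
            · intro hh M hM
              exact ((Subgroup.mem_normalizer_iff).mp ((h𝓜 M).mp hM).2.2.2 h).mpr (hh M hM)
          have hgH : g ∉ Subgroup.normalizer (H : Set G) := fun h => hgN (hmemN g h hgK)
          have hHltR : H < R := lt_of_le_of_ne hHR (fun h => hgH (by rw [h]; exact hgR))
          have hD₀ := norm_grow hRp hHltR
          apply cone_sum m H hm _ (Subgroup.normalizer (H : Set G) ⊓ R) hD₀
          · intro Q hQ
            rw [Finset.mem_filter] at hQ
            exact ((hI Q).mp hQ.1).1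
          · intro Q hQ Q' hHQ' hQ'Q
            rw [Finset.mem_filter] at hQ ⊢
            obtain ⟨hQI, M, hMK, hM, hQM, hgM⟩ := hQ
            exact ⟨(hI Q').mpr ⟨hHQ', hQ'Q.trans ((hI Q).mp hQI).2⟩,
              M, hMK, hM, hQ'Q.trans hQM, hgM⟩
          · intro Q hQ
            rw [Finset.mem_filter] at hQ ⊢
            obtain ⟨hQI, M, hMK, hM, hQM, hgM⟩ := hQ
            have hQI' := (hI Q).mp hQI
            have hMmem : M ∈ 𝓜 := (h𝓜 M).mpr ⟨hMK, hM, hQI'.1.trans hQM, hgM⟩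
            refine ⟨(hI _).mpr ⟨hQI'.1.trans le_sup_left,
              sup_le hQI'.2 (hleN _ inf_le_left (inf_le_right.trans hRK))⟩,
              M, hMK, hM, sup_le hQM (inf_le_right.trans (hRM M hMmem)), hgM⟩
      · apply Finset.sum_eq_zero; intro Q _; simp [hgK]
  -- assembly
  have hIH_N : ∀ Q ∈ I, sC p N Q = tC N P₁ Q := by
    intro Q hQ
    exact ihK N hNlt P₁ hP₁ Q ((hI Q).mp hQ).2
  have hIH_H : ∀ Q ∈ I, Q ≠ H → sC p K Q = tC K P Q := by
    intro Q hQ hne
    have hQ' := (hI Q).mp hQ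
    exact ihH Q (lt_of_le_of_ne hQ'.1 (Ne.symm hne)) (hQ'.2.trans hNK)
  have hmH : m H = 1 := by
    have h0 := hm {H} H (by
      intro Q; rw [Finset.mem_singleton]; constructor
      · rintro rfl; exact ⟨le_rfl, le_rfl⟩
      · rintro ⟨h1, h2⟩; exact le_antisymm h2 h1)
    simpa using h0
  have hS' : ∑ Q ∈ I, m Q * sC p N Q = ∑ Q ∈ I, m Q * tC N P₁ Q :=
    Finset.sum_congr rfl (fun Q hQ => by rw [hIH_N Q hQ])
  have hsum : ∑ Q ∈ I, m Q * (sC p K Q - tC K P Q) = 0 := by
    simp only [mul_sub, Finset.sum_sub_distrib]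
    rw [hS, hT1, hS', hT2, sub_zero]
  rw [Finset.sum_eq_single H] at hsum
  · rw [hmH, one_mul] at hsum
    exact sub_eq_zero.mp hsum
  · intro Q hQ hne
    rw [hIH_H Q hQ hne, sub_self, mul_zero]
  · intro hH'
    exact absurd ((hI H).mpr ⟨le_rfl, hHN⟩) hH'

end Cfsg.Agent.Helper15.Subn
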