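import Cfsg.Agent.Helper15.SubnMain

set_option autoImplicit false

/-!
Steps along a normal series for Casolo's `p`-solvable subnormalizer formula:
`step_p` (a `p`-factor does not change `P ⊔ M`), `step_cA`/`step_cB` (a `p'`-factor), `chain_prod`.
-/

namespace Cfsg.Agent.Helper15.Subn

variable {G : Type*} [Group G]

theorem mem_of_coprime {M : Subgroup G} {a : G} {s r : ℕ} (hco : Nat.Coprime s r)
    (h1 : a ^ s = 1) (h2 : a ^ r ∈ M) : a ∈ M := by
  have h3 : a ^ (1 : ℤ) = a ^ ((s : ℤ) * Nat.gcdA s r + (r : ℤ) * Nat.gcdB s r) := by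
    rw [← Nat.gcd_eq_gcd_ab, Nat.Coprime.gcd_eq_one hco]
    simp
  rw [zpow_one, zpow_add, zpow_mul, zpow_mul, zpow_natCast, zpow_natCast, h1, one_zpow,
    one_mul] at h3
  rw [h3]
  exact M.zpow_mem h2 _

theorem pow_relIndex_mem {M M' : Subgroup G} [M.Normal] {a : G} (ha : a ∈ M') :
    a ^ (M.relIndex M') ∈ M := by
  have h := (M.subgroupOf M').pow_index_mem ⟨a, ha⟩
  rw [Subgroup.mem_subgroupOf] at h
  have h' : a ^ (M.subgroupOf M').index ∈ M := by simpa using h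
  exact h'

theorem pel_mem {p : ℕ} [Fact p.Prime] {M M' Q : Subgroup G} [M.Normal] (hQ : IsPGroup p Q)
    (hco : (M.relIndex M').Coprime p) {a : G} (haQ : a ∈ Q) (haM : a ∈ M') : a ∈ M := by
  obtain ⟨k, hk⟩ := hQ ⟨a, haQ⟩
  have h1 : a ^ (p ^ k) = 1 := by
    have h := congrArg Subtype.val hk
    simpa using h
  exact mem_of_coprime (Nat.Coprime.pow_left k hco.symm) h1 (pow_relIndex_mem haM)

theorem cj_sup_normal (x : G) (Q M : Subgroup G) [hM : M.Normal] :
    cj x (Q ⊔ M) = cj x Q ⊔ M := by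
  have e : cj x M = M := cj_eq_iff.mpr (by rw [Subgroup.normalizer_eq_top]; exact Subgroup.mem_top x)
  unfold cj at e ⊢
  rw [Subgroup.map_sup, e]

theorem cj_top (x : G) : cj x (⊤ : Subgroup G) = ⊤ := by
  ext y; simp [mem_cj]

theorem card_mul_relIndex' {A B : Subgroup G} (h : A ≤ B) :
    Nat.card A * A.relIndex B = Nat.card B := by
  rw [← Subgroup.relIndex_bot_left, ← Subgroup.relIndex_bot_left,
    Subgroup.relIndex_mul_relIndex _ _ _ bot_le h]

/-- a `p`-subgroup of `x P x⁻¹ ⊔ M'` is `M'`-conjugate into `x P x⁻¹` -/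
theorem conj_into [Finite G] {p : ℕ} [Fact p.Prime] (P : Sylow p G) {H : Subgroup G}
    (hH : IsPGroup p H) {M' : Subgroup G} [hM' : M'.Normal] {x : G}
    (hx : H ≤ cj x ((P : Subgroup G) ⊔ M')) : ∃ u ∈ M', H ≤ cj (u * x) (P : Subgroup G) := by
  rw [cj_sup_normal] at hx
  have hsylP : IsSyl p ⊤ (P : Subgroup G) :=
    ⟨le_top, P.isPGroup', fun Q hQ _ hPQ => P.is_maximal' hQ hPQ⟩
  have hsylx : IsSyl p ⊤ (cj x (P : Subgroup G)) := syl_cj hsylP (Subgroup.mem_top x)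
  have hsyl' : IsSyl p (cj x (P : Subgroup G) ⊔ M') (cj x (P : Subgroup G)) :=
    ⟨le_sup_left, hsylx.2.1, fun Q hQ _ hPQ => hsylx.2.2 Q hQ le_top hPQ⟩
  obtain ⟨y, hy, hHy⟩ := syl_conj hsyl' hH hx
  have hy' : y ∈ ((M' ⊔ cj x (P : Subgroup G) : Subgroup G) : Set G) := by
    rw [sup_comm]; exact hy
  rw [Subgroup.normal_mul] at hy'
  obtain ⟨u, hu, a, ha, rfl⟩ := Set.mem_mul.mp hy'
  refine ⟨u, hu, ?_⟩
  rw [← cj_mul, cj_eq_iff.mpr (Subgroup.le_normalizer ha), cj_mul] at hHy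
  exact hHy

theorem comm_iff {p : ℕ} [Fact p.Prime] {Q M M' : Subgroup G} [hM : M.Normal] [hM' : M'.Normal]
    (hle : M ≤ M') (hQ : IsPGroup p Q) (hco : (M.relIndex M').Coprime p) {u h : G}
    (hu : u ∈ M') (hh : h ∈ Q) :
    u⁻¹ * h * u ∈ Q ⊔ M ↔ h * u * h⁻¹ * u⁻¹ ∈ M := by
  constructor
  · intro h1
    have hv : h⁻¹ * (u⁻¹ * h * u) ∈ Q ⊔ M :=
      (Q ⊔ M).mul_mem ((le_sup_left : Q ≤ Q ⊔ M) (Q.inv_mem hh)) h1
    have hvM' : h⁻¹ * (u⁻¹ * h * u) ∈ M' := by
      have e : h⁻¹ * (u⁻¹ * h * u) = (h⁻¹ * u⁻¹ * h⁻¹⁻¹) * u := by group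
      rw [e]
      exact M'.mul_mem (hM'.conj_mem _ (M'.inv_mem hu) _) hu
    have hv' : h⁻¹ * (u⁻¹ * h * u) ∈ ((Q ⊔ M : Subgroup G) : Set G) := hv
    rw [Subgroup.mul_normal] at hv'
    obtain ⟨a, ha, b, hb, hab⟩ := Set.mem_mul.mp hv'
    have haM' : a ∈ M' := by
      have e : a = (h⁻¹ * (u⁻¹ * h * u)) * b⁻¹ := by rw [← hab]; group
      rw [e]
      exact M'.mul_mem hvM' (M'.inv_mem (hle hb))
    have haM : a ∈ M := pel_mem hQ hco ha haM'
    have hvM : h⁻¹ * (u⁻¹ * h * u) ∈ M := by rw [← hab]; exact M.mul_mem haM hb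
    have e : h * u * h⁻¹ * u⁻¹ = (u * h) * (h⁻¹ * (u⁻¹ * h * u)) * (u * h)⁻¹ := by group
    rw [e]
    exact hM.conj_mem _ hvM _
  · intro hw
    have e : u⁻¹ * h * u = h * ((u * h)⁻¹ * (h * u * h⁻¹ * u⁻¹) * (u * h)⁻¹⁻¹) := by group
    rw [e]
    exact (Q ⊔ M).mul_mem ((le_sup_left : Q ≤ Q ⊔ M) hh)
      ((le_sup_right : M ≤ Q ⊔ M) (hM.conj_mem _ hw _))

theorem fiber_iff {p : ℕ} [Fact p.Prime] {H Q M M' : Subgroup G} [hM : M.Normal]
    [hM' : M'.Normal] (hle : M ≤ M') (hQ : IsPGroup p Q) (hHQ : H ≤ Q)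
    (hco : (M.relIndex M').Coprime p) {u : G} (hu : u ∈ M') :
    H ≤ cj u (Q ⊔ M) ↔ ∀ h ∈ H, h * u * h⁻¹ * u⁻¹ ∈ M := by
  constructor
  · intro h1 h hh
    have h2 := h1 hh
    rw [mem_cj] at h2
    exact (comm_iff hle hQ hco hu (hHQ hh)).mp h2
  · intro h1 h hh
    rw [mem_cj]
    exact (comm_iff hle hQ hco hu (hHQ hh)).mpr (h1 h hh)

open Classical in
theorem card_sub_eq [Fintype G] (q : G → Prop) :
    Nat.card {x : G // q x} = (Finset.univ.filter q).card := by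
  rw [Nat.card_eq_fintype_card, Fintype.card_subtype]

open Classical in
theorem step_cA_fin [Fintype G] {p : ℕ} [Fact p.Prime] (P : Sylow p G) {H : Subgroup G}
    (hH : IsPGroup p H) {M M' : Subgroup G} [hM : M.Normal] [hM' : M'.Normal] (hle : M ≤ M')
    (hco : (M.relIndex M').Coprime p) :
    (Finset.univ.filter (fun x : G => H ≤ cj x ((P : Subgroup G) ⊔ M))).card *
        (Finset.univ.filter (fun u : G => u ∈ M')).card =
      (Finset.univ.filter (fun x : G => H ≤ cj x ((P : Subgroup G) ⊔ M'))).card *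
        (Finset.univ.filter
          (fun u : G => u ∈ M' ∧ ∀ h ∈ H, h * u * h⁻¹ * u⁻¹ ∈ M)).card := by
  have hPM : (P : Subgroup G) ⊔ M ≤ (P : Subgroup G) ⊔ M' := sup_le_sup_left hle _
  -- closure of the big set under left multiplication by `M'`
  have hclos : ∀ (u x : G), u ∈ M' → H ≤ cj x ((P : Subgroup G) ⊔ M') →
      H ≤ cj (u * x) ((P : Subgroup G) ⊔ M') := by
    intro u x hu hx
    rw [← cj_mul]
    have hu' : u ∈ cj x ((P : Subgroup G) ⊔ M') := by
      rw [cj_sup_normal]; exact (le_sup_right : M' ≤ _) hu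
    rw [cj_eq_iff.mpr (Subgroup.le_normalizer hu')]
    exact hx
  have key1 : ∀ x ∈ Finset.univ.filter (fun x : G => H ≤ cj x ((P : Subgroup G) ⊔ M')),
      ((Finset.univ.filter (fun u : G => u ∈ M')).filter
        (fun u => H ≤ cj (u * x) ((P : Subgroup G) ⊔ M))).card
      = (Finset.univ.filter
          (fun u : G => u ∈ M' ∧ ∀ h ∈ H, h * u * h⁻¹ * u⁻¹ ∈ M)).card := by
    intro x hx
    rw [Finset.mem_filter] at hx
    obtain ⟨u₀, hu₀, hH₀⟩ := conj_into P hH hx.2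
    have hQ : IsPGroup p (cj (u₀ * x) (P : Subgroup G)) := cj_pg P.isPGroup'
    have hrew : ∀ u : G, cj (u * x) ((P : Subgroup G) ⊔ M)
        = cj (u * u₀⁻¹) (cj (u₀ * x) (P : Subgroup G) ⊔ M) := by
      intro u
      rw [← cj_sup_normal, cj_mul]
      congr 1
      group
    apply Finset.card_bij (fun u _ => u * u₀⁻¹)
    · intro u hu
      rw [Finset.mem_filter, Finset.mem_filter] at hu
      rw [Finset.mem_filter]
      obtain ⟨⟨-, huM⟩, hu2⟩ := hu
      have huM' : u * u₀⁻¹ ∈ M' := M'.mul_mem huM (M'.inv_mem hu₀)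
      rw [hrew] at hu2
      exact ⟨Finset.mem_univ _, huM', (fiber_iff hle hQ hH₀ hco huM').mp hu2⟩
    · intro a _ b _ hab
      exact mul_right_cancel hab
    · intro v hv
      rw [Finset.mem_filter] at hv
      obtain ⟨-, hvM, hv2⟩ := hv
      refine ⟨v * u₀, ?_, by simp⟩
      rw [Finset.mem_filter, Finset.mem_filter]
      refine ⟨⟨Finset.mem_univ _, M'.mul_mem hvM hu₀⟩, ?_⟩
      rw [hrew, mul_inv_cancel_right]
      exact (fiber_iff hle hQ hH₀ hco hvM).mpr hv2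
  have hS1 : ((Finset.univ.filter (fun x : G => H ≤ cj x ((P : Subgroup G) ⊔ M'))).sigma
      (fun x => (Finset.univ.filter (fun u : G => u ∈ M')).filter
        (fun u => H ≤ cj (u * x) ((P : Subgroup G) ⊔ M)))).card
      = (Finset.univ.filter (fun x : G => H ≤ cj x ((P : Subgroup G) ⊔ M'))).card *
        (Finset.univ.filter
          (fun u : G => u ∈ M' ∧ ∀ h ∈ H, h * u * h⁻¹ * u⁻¹ ∈ M)).card := by
    rw [Finset.card_sigma, Finset.sum_congr rfl key1, Finset.sum_const, smul_eq_mul]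
  have hS2 : ((Finset.univ.filter (fun x : G => H ≤ cj x ((P : Subgroup G) ⊔ M'))).sigma
      (fun x => (Finset.univ.filter (fun u : G => u ∈ M')).filter
        (fun u => H ≤ cj (u * x) ((P : Subgroup G) ⊔ M)))).card
      = ((Finset.univ.filter (fun x : G => H ≤ cj x ((P : Subgroup G) ⊔ M))) ×ˢ
          (Finset.univ.filter (fun u : G => u ∈ M'))).card := by
    apply Finset.card_bij (fun a _ => (a.2 * a.1, a.2))
    · rintro ⟨x, u⟩ ha
      simp only [Finset.mem_sigma, Finset.mem_filter, Finset.mem_univ, true_and] at ha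
      simp only [Finset.mem_product, Finset.mem_filter, Finset.mem_univ, true_and]
      exact ⟨ha.2.2, ha.2.1⟩
    · rintro ⟨x, u⟩ _ ⟨x', u'⟩ _ hab
      simp only [Prod.mk.injEq] at hab
      obtain ⟨h1, h2⟩ := hab
      subst h2
      have h3 : x = x' := mul_left_cancel h1
      subst h3
      rfl
    · rintro ⟨y, u⟩ hb
      simp only [Finset.mem_product, Finset.mem_filter, Finset.mem_univ, true_and] at hb
      refine ⟨⟨u⁻¹ * y, u⟩, ?_, by simp⟩
      simp only [Finset.mem_sigma, Finset.mem_filter, Finset.mem_univ, true_and]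
      refine ⟨hclos u⁻¹ y (M'.inv_mem hb.2) (hb.1.trans (cj_mono hPM)), hb.2, ?_⟩
      rw [mul_inv_cancel_left]
      exact hb.1
  rw [← Finset.card_product, ← hS2, hS1]

theorem step_cA [Finite G] {p : ℕ} [Fact p.Prime] (P : Sylow p G) {H : Subgroup G}
    (hH : IsPGroup p H) {M M' : Subgroup G} [hM : M.Normal] [hM' : M'.Normal] (hle : M ≤ M')
    (hco : (M.relIndex M').Coprime p) :
    Nat.card {x : G // H ≤ cj x ((P : Subgroup G) ⊔ M)} * Nat.card M' =
      Nat.card {x : G // H ≤ cj x ((P : Subgroup G) ⊔ M')} *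
        Nat.card {u : G // u ∈ M' ∧ ∀ h ∈ H, h * u * h⁻¹ * u⁻¹ ∈ M} := by
  haveI : Fintype G := Fintype.ofFinite G
  have h := step_cA_fin P hH hle hco
  rw [card_sub_eq, card_sub_eq, card_sub_eq, card_sub_eq]
  convert h

theorem step_cB [Finite G] {p : ℕ} [Fact p.Prime] (P : Sylow p G) {M M' : Subgroup G}
    [hM : M.Normal] [hM' : M'.Normal] (hle : M ≤ M') (hco : (M.relIndex M').Coprime p) :
    Nat.card ((P : Subgroup G) ⊔ M' : Subgroup G)
      = Nat.card ((P : Subgroup G) ⊔ M : Subgroup G) * M.relIndex M' := by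
  have hinf : M' ⊓ (P : Subgroup G) = M ⊓ (P : Subgroup G) := by
    apply le_antisymm
    · intro a ha
      have ha' := Subgroup.mem_inf.mp ha
      exact Subgroup.mem_inf.mpr ⟨pel_mem P.isPGroup' hco ha'.2 ha'.1, ha'.2⟩
    · exact inf_le_inf_right _ hle
  have h1 : M'.relIndex ((P : Subgroup G) ⊔ M') = M.relIndex ((P : Subgroup G) ⊔ M) := by
    rw [Subgroup.relIndex_sup_right, Subgroup.relIndex_sup_right,
      ← Subgroup.inf_relIndex_right M' (P : Subgroup G),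
      ← Subgroup.inf_relIndex_right M (P : Subgroup G), hinf]
  have h2 := card_mul_relIndex' (le_sup_right : M' ≤ (P : Subgroup G) ⊔ M')
  have h3 := card_mul_relIndex' (le_sup_right : M ≤ (P : Subgroup G) ⊔ M)
  have h4 := card_mul_relIndex' hle
  calc Nat.card ((P : Subgroup G) ⊔ M' : Subgroup G)
      = Nat.card M' * M'.relIndex ((P : Subgroup G) ⊔ M') := h2.symm
    _ = (Nat.card M * M.relIndex M') * M.relIndex ((P : Subgroup G) ⊔ M) := by rw [h1, h4]
    _ = (Nat.card M * M.relIndex ((P : Subgroup G) ⊔ M)) * M.relIndex M' := by ring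
    _ = Nat.card ((P : Subgroup G) ⊔ M : Subgroup G) * M.relIndex M' := by rw [h3]

theorem step_p [Finite G] {p : ℕ} [hp : Fact p.Prime] (P : Sylow p G) {M M' : Subgroup G}
    [hM : M.Normal] [hM' : M'.Normal] (hle : M ≤ M') {m : ℕ} (hr : M.relIndex M' = p ^ m) :
    (P : Subgroup G) ⊔ M' = (P : Subgroup G) ⊔ M := by
  obtain ⟨L, hL⟩ : ∃ L : Subgroup G, L = (P : Subgroup G) ⊔ M := ⟨_, rfl⟩
  rw [← hL]
  have hPL : (P : Subgroup G) ≤ L := by rw [hL]; exact le_sup_left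
  have hML : M ≤ L := by rw [hL]; exact le_sup_right
  have hLL' : L ⊔ M' = (P : Subgroup G) ⊔ M' := by
    rw [hL, sup_assoc, sup_eq_right.mpr hle]
  have hle' : L ≤ L ⊔ M' := le_sup_left
  have h2 := card_mul_relIndex' (le_sup_right : M' ≤ L ⊔ M')
  have h3 := card_mul_relIndex' (inf_le_right : M' ⊓ L ≤ L)
  have h4 := card_mul_relIndex' (inf_le_left : M' ⊓ L ≤ M')
  have h5 := card_mul_relIndex' hle'
  have h6 : M'.relIndex (L ⊔ M') = (M' ⊓ L).relIndex L := by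
    rw [Subgroup.relIndex_sup_right, ← Subgroup.inf_relIndex_right M' L]
  have h7 : L.relIndex (L ⊔ M') = (M' ⊓ L).relIndex M' := by
    have hpos : 0 < Nat.card L := Nat.card_pos
    apply Nat.eq_of_mul_eq_mul_left hpos
    rw [h5, ← h2, h6, ← h4, ← h3]; ring
  have h8 : (M' ⊓ L).relIndex M' ∣ p ^ m := by
    rw [← hr]
    exact Subgroup.relIndex_dvd_of_le_left M' (le_inf hle hML)
  have h9 : L.relIndex (L ⊔ M') ∣ (P : Subgroup G).index :=
    (Subgroup.relIndex_dvd_of_le_left (L ⊔ M') hPL).trans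
      (Subgroup.relIndex_dvd_index_of_le (hPL.trans hle'))
  rw [h7] at h9
  obtain ⟨j, -, hj⟩ := (Nat.dvd_prime_pow hp.out).mp h8
  have hj0 : j = 0 := by
    by_contra hne
    apply P.not_dvd_index
    rw [hj] at h9
    exact (dvd_pow_self p hne).trans h9
  rw [hj0, pow_zero] at hj
  rw [← h7, Subgroup.relIndex_eq_one] at hj
  rw [← hLL']
  exact le_antisymm hj le_sup_left

theorem cent_dvd {H M M' : Subgroup G} [hM : M.Normal] (hle : M ≤ M') :
    Nat.card M ∣ Nat.card {u : G // u ∈ M' ∧ ∀ h ∈ H, h * u * h⁻¹ * u⁻¹ ∈ M} := by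
  let D : Subgroup G :=
    { carrier := {u | u ∈ M' ∧ ∀ h ∈ H, h * u * h⁻¹ * u⁻¹ ∈ M}
      one_mem' := ⟨M'.one_mem, fun h _ => by simp⟩
      mul_mem' := by
        rintro u v ⟨hu, hu'⟩ ⟨hv, hv'⟩
        refine ⟨M'.mul_mem hu hv, fun h hh => ?_⟩
        have e : h * (u * v) * h⁻¹ * (u * v)⁻¹
            = (h * u * h⁻¹ * u⁻¹) * (u * (h * v * h⁻¹ * v⁻¹) * u⁻¹) := by group
        rw [e]
        exact M.mul_mem (hu' h hh) (hM.conj_mem _ (hv' h hh) _)
      inv_mem' := by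
        rintro u ⟨hu, hu'⟩
        refine ⟨M'.inv_mem hu, fun h hh => ?_⟩
        have e : h * u⁻¹ * h⁻¹ * u⁻¹⁻¹ = u⁻¹ * (h * u * h⁻¹ * u⁻¹)⁻¹ * u⁻¹⁻¹ := by group
        rw [e]
        exact hM.conj_mem _ (M.inv_mem (hu' h hh)) _ }
  have hMD : M ≤ D := by
    intro u hu
    refine ⟨hle hu, fun h _ => ?_⟩
    exact M.mul_mem (hM.conj_mem u hu h) (M.inv_mem hu)
  exact Subgroup.card_dvd_of_le hMD

theorem chain_prod : ∀ (n : ℕ) (X Y : Fin (n + 1) → ℕ) (t : Fin n → ℕ), (∀ i, 0 < Y i) →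
    (∀ i : Fin n, X i.castSucc * Y i.succ = X i.succ * Y i.castSucc * t i) →
    X 0 * Y (Fin.last n) = X (Fin.last n) * Y 0 * ∏ i, t i := by
  intro n
  induction n with
  | zero =>
    intro X Y t _ _
    show X 0 * Y 0 = X 0 * Y 0 * ∏ i : Fin 0, t i
    simp
  | succ n ih =>
    intro X Y t hY h
    have h0 := h 0
    have ih' := ih (fun j => X j.succ) (fun j => Y j.succ) (fun j => t j.succ) (fun j => hY _)
      (fun i => by
        have h1 := h i.succ
        rw [← Fin.succ_castSucc] at h1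
        exact h1)
    rw [Fin.prod_univ_succ]
    have hY1 := hY (Fin.succ 0)
    apply Nat.eq_of_mul_eq_mul_right hY1
    simp only [Fin.castSucc_zero, Fin.succ_last] at h0 ih'
    calc X 0 * Y (Fin.last (n + 1)) * Y (Fin.succ 0)
        = (X 0 * Y (Fin.succ 0)) * Y (Fin.last (n + 1)) := by ring
      _ = X (Fin.succ 0) * Y 0 * t 0 * Y (Fin.last (n + 1)) := by rw [h0]
      _ = Y 0 * t 0 * (X (Fin.succ 0) * Y (Fin.last (n + 1))) := by ring
      _ = Y 0 * t 0 * (X (Fin.last (n + 1)) * Y (Fin.succ 0) * ∏ i : Fin n, t i.succ) := by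
        rw [ih']
      _ = X (Fin.last (n + 1)) * Y 0 * (t 0 * ∏ i : Fin n, t i.succ) * Y (Fin.succ 0) := by
        ring

end Cfsg.Agent.Helper15.Subn
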